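import Groth.Agent.Dual.H322.BcMain
import Groth.Agent.Dual.H345.AffUniv
import Groth.Agent.Dual.H305.Supp

/-!
# Flat base change for right adjoints when `Rf_*` preserves perfect objects

`isIso_bc_perf`: cartesian square, `f` qcqs, `g` flat, `Y`, `Y'` qcqs, `Rf_*`, `Rf'_*` preserve perfect objects (locally
on the base): for ANY natural isomorphism `σ : R f_* ⋙ Lg^* ≅ Lg'^* ⋙ R f'_*` on `D_QCoh` the base change maps
`Lg'^* a(K) ⟶ a'(Lg^* K)` are isomorphisms, for all `K` in `D_QCoh(O_Y)`.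
-/

set_option autoImplicit false

universe u

open CategoryTheory CategoryTheory.Limits AlgebraicGeometry Pretriangulated

attribute [local instance] HasDerivedCategory.standard

namespace Groth.Agent.Dual.H322.BcPerf

open Groth.Agent.PerfB.BCTot Groth.Agent.PerfB.BCTot.Tot Groth.Agent.PerfB.BCSch
  Groth.Agent.PerfB.BCFormal Groth.Agent.Dual.H322.BcForm Groth.Agent.Dual.H322.BcSch
  Groth.Agent.Dual.H322.BcGlue Groth.Agent.Dual.H322.BcOpen Groth.Agent.Dual.H322.BcUniv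
  Groth.Agent.Dual.H322.BcMain
  Groth.Agent.Dcoh.DerSch Groth.Agent.PerfB.BCPush Groth.Agent.PerfB.BCShift
  Groth.Agent.Ega1.ADualOpen Groth.Agent.Ega1.ADualUniv Groth.Agent.LoccohB.VanOn
  Groth.Agent.Dual.H305.Supp

attribute [local instance] hasLpull hasRpush

/-- `Rf_*` preserves perfect objects, locally on the base. -/
def LocPushPerf {X Y : Scheme.{u}} (f : X ⟶ Y) : Prop :=
  ∀ ⦃U V : Scheme.{u}⦄ (jX : U ⟶ X) (f₀ : U ⟶ V) (j : V ⟶ Y) [IsOpenImmersion j] [IsAffine V],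
    IsPullback jX f₀ f j → PushPerf f₀

section

variable {X Y : Scheme.{u}} {f : X ⟶ Y} {a : DCoh.DQCoh Y ⥤ DCoh.DQCoh X}
  {hf : DCoh.RpushPreservesQCoh f}

/-- `a` is compatible with restriction to opens. -/
theorem openCond_of_locPushPerf [QuasiCompact f] [QuasiSeparated f] [CompactSpace Y]
    [QuasiSeparatedSpace Y] (hP : LocPushPerf f) (adj : DCoh.RpushQ f hf ⊣ a) (K : DCoh.DQCoh Y) :
    OpenCond f a K := by
  intro U V jX f₀ j _ _ sq
  have : IsOpenImmersion jX := MorphismProperty.of_isPullback sq.flip inferInstance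
  refine isIso_map_unit adj (fun Q hQ => ?_) K
  have hQ' : IsZero ((PerfA.Restrict.restrictD j).obj Q.obj) :=
    hQ.of_iso ((PerfB.LpullOpens.lpullRestrictD j).app Q.obj).symm
  have hV : Set.range j = Set.range j.opensRange.ι := by
    rw [Scheme.Opens.range_ι]; rfl
  have hQV : vanOn j.opensRange Q.obj :=
    (Ega1.ADualOpen.isZero_restrictD_iff _ _).2 fun i => isZero_restrict_of_range hV.ge
      ((Ega1.ADualOpen.isZero_restrictD_iff _ _).1 hQ' i)
  have h1 : vanOn (f ⁻¹ᵁ j.opensRange) (a.obj Q).obj :=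
    vanOn_preimage_of_pushPerf f (fun W hW => by
      have : IsAffine W := hW
      exact hP (f ⁻¹ᵁ W).ι (f ∣_ W) W.ι (isPullback_morphismRestrict f W).flip) hf a adj _ Q hQV
  have h2 : IsZero ((PerfA.Restrict.restrictD jX).obj (a.obj Q).obj) :=
    (Ega1.ADualOpen.isZero_restrictD_iff _ _).2 fun i => isZero_restrict_of_range (by
      rintro _ ⟨y, rfl⟩
      rw [Scheme.Opens.range_ι]
      exact ⟨f₀ y, by rw [← Scheme.Hom.comp_apply, ← sq.w]; rfl⟩) ((Ega1.ADualOpen.isZero_restrictD_iff _ _).1 h1 i)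
  exact h2.of_iso ((PerfB.LpullOpens.lpullRestrictD jX).app _)

end

/-- Affine case. -/
theorem isIso_bc_affine {X Y X' Y' : Scheme.{u}} [IsAffine Y] [IsAffine Y'] {f : X ⟶ Y} {g : Y' ⟶ Y}
    {f' : X' ⟶ Y'} {g' : X' ⟶ X} (sq : IsPullback g' f' f g) [QuasiCompact f] [QuasiSeparated f] [Flat g]
    (hP : PushPerf f)
    {hf : DCoh.RpushPreservesQCoh f} {hf' : DCoh.RpushPreservesQCoh f'}
    {hLg : Dual3.LpullPreservesQCoh g} {hLg' : Dual3.LpullPreservesQCoh g'}
    {a : DCoh.DQCoh Y ⥤ DCoh.DQCoh X} {a' : DCoh.DQCoh Y' ⥤ DCoh.DQCoh X'}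
    (adj : DCoh.RpushQ f hf ⊣ a) (adj' : DCoh.RpushQ f' hf' ⊣ a')
    (σ : DCoh.RpushQ f hf ⋙ Dual3.LpullQ g hLg ≅ Dual3.LpullQ g' hLg' ⋙ DCoh.RpushQ f' hf')
    (K : DCoh.DQCoh Y) : IsIso (bc adj adj' σ K) := by
  rw [isIso_bc_iff_isUniv]
  refine Dual.H345.AffUniv.isUniv_flat_of_perfect sq (fun P hp => hP inferInstance P hp) K.property
    (isUniv_of_adj (h := hf) adj K)
    (fun N hN => (ObjectProperty.ι _).mapIso (σ.app ⟨N, hN⟩)) ?_ _ ?_
  · intro N N' hN hN' ψ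
    let ψ' : (⟨N, hN⟩ : DCoh.DQCoh X) ⟶ ⟨N', hN'⟩ := ObjectProperty.homMk ψ
    exact congrArg (fun t => t.hom) (σ.hom.naturality ψ')
  · have h1 : σ.hom.app (a.obj K) ≫ σ.inv.app (a.obj K) = 𝟙 _ := σ.hom_inv_id_app (a.obj K)
    have h2 : (σ.hom.app (a.obj K)).hom ≫ (σ.inv.app (a.obj K)).hom = 𝟙 _ :=
      congrArg (fun t => t.hom) h1
    change (σ.hom.app (a.obj K)).hom ≫ (σ.inv.app (a.obj K)).hom ≫ _ = _
    rw [← Category.assoc, h2, Category.id_comp]

/-- **Flat base change for right adjoints, `Rf_*` preserving perfect objects.** -/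
theorem isIso_bc_perf {X Y X' Y' : Scheme.{u}} {f : X ⟶ Y} {g : Y' ⟶ Y} {f' : X' ⟶ Y'} {g' : X' ⟶ X}
    (sq : IsPullback g' f' f g) [QuasiCompact f] [QuasiSeparated f] [Flat g]
    [CompactSpace Y] [QuasiSeparatedSpace Y] [CompactSpace Y'] [QuasiSeparatedSpace Y']
    (hP : LocPushPerf f) (hP' : LocPushPerf f')
    {hf : DCoh.RpushPreservesQCoh f} {hf' : DCoh.RpushPreservesQCoh f'}
    {hLg : Dual3.LpullPreservesQCoh g} {hLg' : Dual3.LpullPreservesQCoh g'}
    {a : DCoh.DQCoh Y ⥤ DCoh.DQCoh X} {a' : DCoh.DQCoh Y' ⥤ DCoh.DQCoh X'}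
    (adj : DCoh.RpushQ f hf ⊣ a) (adj' : DCoh.RpushQ f' hf' ⊣ a')
    (σ : DCoh.RpushQ f hf ⋙ Dual3.LpullQ g hLg ≅ Dual3.LpullQ g' hLg' ⋙ DCoh.RpushQ f' hf')
    (K : DCoh.DQCoh Y) : IsIso (bc adj adj' σ K) := by
  have hqc' : QuasiCompact f' := MorphismProperty.of_isPullback sq inferInstance
  have hqs' : QuasiSeparated f' := MorphismProperty.of_isPullback sq inferInstance
  refine isIso_bc_of_charts sq adj adj' σ K (openCond_of_locPushPerf hP adj K)
    (openCond_of_locPushPerf hP' adj' _) ?_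
  intro A B U U' φ j j' jX fV jX' fV' h' _ _ hfV hfV' a₀ a₁ adj₀ adj₁ sqV sqV' sqh w σh
  have : QuasiCompact fV := MorphismProperty.of_isPullback sqV inferInstance
  have : QuasiSeparated fV := MorphismProperty.of_isPullback sqV inferInstance
  have hflat : Flat (Spec.map φ) := by
    have h1 : Flat (Spec.map φ ≫ j) := by rw [← w]; infer_instance
    exact MorphismProperty.of_postcomp (W := @Flat) (W' := @IsOpenImmersion) _ j inferInstance h1
  exact isIso_bc_affine sqh (hP jX fV j sqV) adj₀ adj₁ σh _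

end Groth.Agent.Dual.H322.BcPerf
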