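import Groth.Agent.Dual.H322.BcPerf

/-!
# Flat base change of universal objects when `Rf_*` preserves perfect objects

* `locPushPerf_of_flat_proper`: `f` proper, flat, locally of finite presentation;
* `univ_flat_of_locPushPerf`: `Univ f K L → Univ f' (Lg^* K) (Lg'^* L)`, `g` flat, `Y`, `Y'` qcqs, any `K` in `D_QCoh`;
* `univ_flat_of_proper_flat`: the case of `f` proper, flat, locally of finite presentation;
* `nonempty_functor_iso`: `a ⋙ Lg'^* ≅ Lg^* ⋙ a'` on `D_QCoh`.
-/

set_option autoImplicit false

universe u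

open CategoryTheory CategoryTheory.Limits AlgebraicGeometry Pretriangulated

attribute [local instance] HasDerivedCategory.standard

namespace Groth.Agent.Dual.H322.BcUnivPerf

open Groth.Agent.PerfB.BCSch Groth.Agent.PerfB.BCFormal Groth.Agent.Dual.H322.BcSch
  Groth.Agent.Dual.H322.BcOpen Groth.Agent.Dual.H322.BcUniv Groth.Agent.Dual.H322.BcMain
  Groth.Agent.Dual.H322.BcPerf Groth.Agent.Dcoh.DerSch Groth.Agent.Ega1.ADualUniv
  Groth.Agent.Dual.H305.Supp

attribute [local instance] hasLpull hasRpush

/-- `Rf_*` preserves perfect objects for `f` proper, flat, locally of finite presentation. -/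
theorem locPushPerf_of_flat_proper {X Y : Scheme.{u}} (f : X ⟶ Y) [IsProper f] [Flat f]
    [LocallyOfFinitePresentation f] : LocPushPerf f := by
  intro U V jX f₀ j _ _ sq _ K hK
  have : IsProper f₀ := MorphismProperty.of_isPullback sq inferInstance
  have : Flat f₀ := MorphismProperty.of_isPullback sq inferInstance
  have : LocallyOfFinitePresentation f₀ := MorphismProperty.of_isPullback sq inferInstance
  exact S1002.result f₀ K hK

section

variable {X Y X' Y' : Scheme.{u}} {f : X ⟶ Y} {g : Y' ⟶ Y} {f' : X' ⟶ Y'} {g' : X' ⟶ X}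

/-- Functor form of flat base change for right adjoints. -/
theorem nonempty_functor_iso (sq : IsPullback g' f' f g) [QuasiCompact f] [QuasiSeparated f] [Flat g]
    [CompactSpace Y] [QuasiSeparatedSpace Y] [CompactSpace Y'] [QuasiSeparatedSpace Y']
    (hP : LocPushPerf f) (hP' : LocPushPerf f')
    {hf : DCoh.RpushPreservesQCoh f} {hf' : DCoh.RpushPreservesQCoh f'}
    (hLg : Dual3.LpullPreservesQCoh g) (hLg' : Dual3.LpullPreservesQCoh g')
    {a : DCoh.DQCoh Y ⥤ DCoh.DQCoh X} {a' : DCoh.DQCoh Y' ⥤ DCoh.DQCoh X'}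
    (adj : DCoh.RpushQ f hf ⊣ a) (adj' : DCoh.RpushQ f' hf' ⊣ a') :
    Nonempty (a ⋙ Dual3.LpullQ g' hLg' ≅ Dual3.LpullQ g hLg ⋙ a') := by
  have hqc' : QuasiCompact f' := MorphismProperty.of_isPullback sq inferInstance
  have hqs' : QuasiSeparated f' := MorphismProperty.of_isPullback sq inferInstance
  have hgc : QuasiCompact g := inferInstance
  have hgc' : QuasiCompact g' := MorphismProperty.of_isPullback sq.flip inferInstance
  have hgs' : QuasiSeparated g' := MorphismProperty.of_isPullback sq.flip inferInstance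
  obtain ⟨σ⟩ := nonempty_sigma sq hf hf' (rpushPreserves g) (rpushPreserves g') hLg hLg'
  have h : ∀ K : DCoh.DQCoh Y, IsIso (bc adj adj' σ K) := fun K => isIso_bc_perf sq hP hP' adj adj' σ K
  exact ⟨NatIso.ofComponents (fun K => asIso (bc adj adj' σ K)) (fun {K L} k => bc_naturality adj adj' σ k)⟩

/-- **Flat base change of universal objects.** -/
theorem univ_flat_of_locPushPerf (sq : IsPullback g' f' f g) [QuasiCompact f] [QuasiSeparated f] [Flat g]
    [CompactSpace Y] [QuasiSeparatedSpace Y] [CompactSpace Y'] [QuasiSeparatedSpace Y']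
    (hP : LocPushPerf f) (hP' : LocPushPerf f') {K : DCoh.D Y} (hK : DCoh.IsQCohD K) {L : DCoh.D X}
    (h : Univ f K L) : Univ f' ((DCoh.Lpull g).obj K) ((DCoh.Lpull g').obj L) := by
  have hqc' : QuasiCompact f' := MorphismProperty.of_isPullback sq inferInstance
  have hqs' : QuasiSeparated f' := MorphismProperty.of_isPullback sq inferInstance
  have hgc : QuasiCompact g := inferInstance
  have hgc' : QuasiCompact g' := MorphismProperty.of_isPullback sq.flip inferInstance
  have hgs' : QuasiSeparated g' := MorphismProperty.of_isPullback sq.flip inferInstance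
  have : CompactSpace X := QuasiCompact.compactSpace_of_compactSpace f
  have : QuasiSeparatedSpace X := quasiSeparatedSpace_of_quasiSeparated f
  have : CompactSpace X' := QuasiCompact.compactSpace_of_compactSpace f'
  have : QuasiSeparatedSpace X' := quasiSeparatedSpace_of_quasiSeparated f'
  have ha : (DCoh.RpushQ f (rpushPreserves f)).IsLeftAdjoint := S1766.result _ _ f (rpushPreserves f)
  have ha' : (DCoh.RpushQ f' (rpushPreserves f')).IsLeftAdjoint :=
    S1766.result _ _ f' (rpushPreserves f')
  let adj := Adjunction.ofIsLeftAdjoint (DCoh.RpushQ f (rpushPreserves f))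
  let adj' := Adjunction.ofIsLeftAdjoint (DCoh.RpushQ f' (rpushPreserves f'))
  obtain ⟨σ⟩ := nonempty_sigma sq (rpushPreserves f) (rpushPreserves f') (rpushPreserves g)
    (rpushPreserves g') (lpullPreserves g) (lpullPreserves g')
  have h1 := (isIso_bc_iff_isUniv adj adj' σ ⟨K, hK⟩).1 (isIso_bc_perf sq hP hP' adj adj' σ ⟨K, hK⟩)
  obtain ⟨e⟩ := (univ_of_adj (h := rpushPreserves f) adj ⟨K, hK⟩ :
    Univ f K ((DCoh.RpushQ f (rpushPreserves f)).rightAdjoint.obj ⟨K, hK⟩).obj).unique h
  exact Univ.of_iso_left ⟨_, h1⟩ ((DCoh.Lpull g').mapIso e) (lpullPreserves g' _ h.qcoh)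

/-- **Flat base change of universal objects**, `f` proper, flat, locally of finite presentation. -/
theorem univ_flat_of_proper_flat (sq : IsPullback g' f' f g) [IsProper f] [Flat f]
    [LocallyOfFinitePresentation f] [Flat g]
    [CompactSpace Y] [QuasiSeparatedSpace Y] [CompactSpace Y'] [QuasiSeparatedSpace Y']
    {K : DCoh.D Y} (hK : DCoh.IsQCohD K) {L : DCoh.D X}
    (h : Univ f K L) : Univ f' ((DCoh.Lpull g).obj K) ((DCoh.Lpull g').obj L) := by
  have : IsProper f' := MorphismProperty.of_isPullback sq inferInstance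
  have : Flat f' := MorphismProperty.of_isPullback sq inferInstance
  have : LocallyOfFinitePresentation f' := MorphismProperty.of_isPullback sq inferInstance
  exact univ_flat_of_locPushPerf sq (locPushPerf_of_flat_proper f) (locPushPerf_of_flat_proper f') hK h

end

end Groth.Agent.Dual.H322.BcUnivPerf
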